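import Groth.Agent.Vancyc.H684.GalCont
import Groth.Agent.Etcore.HC
import Groth.Agent.Etcore.HpullViaEq
import Groth.Agent.Sga7.H744.HcEq
import Mathlib.FieldTheory.Normal.Closure
import Mathlib.FieldTheory.IsSepClosed

/-!
# Every class of `H^q(C_Ω, M)` comes from a finite Galois level
-/

set_option autoImplicit false
set_option backward.isDefEq.respectTransparency.types false
universe u
open CategoryTheory CategoryTheory.Limits AlgebraicGeometry Opposite Abelian
open scoped Groth.Agent.Etcore.EtInst
open Groth.Agent.Etcore.EtInst Groth.Agent.Etcore.PullCoh Groth.Agent.Etcore.HpullCalc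

namespace Groth.Agent.Sga7.H799.F0

open Groth.Agent.Etcore.HC Groth.Agent.Sga7.H744.CohConst Groth.Agent.Sga7.H744.HcFun

attribute [local instance] Groth.Agent.S0101.result

theorem hc_pullConst {A Y X : Scheme.{u}} (pr : A ⟶ Y) (s : Y ⟶ X) (j : A ⟶ X) (w : pr ≫ s = j)
    (M : Type) [AddCommGroup M] (q : ℕ) (η : HH Y ((EtCoh.pull s).obj (EtCoh.const X M)) q) :
    hc pr M q (HHmap (EtCore.pullConst s M).hom q η) =
      HHmap (EtCore.pullConst j M).hom q (hpVia pr s j w (EtCoh.const X M) q η) := by
  have e1 := hpl_map pr (EtCore.pullConst s M).hom (EtCore.pullConst pr M).hom q η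
  refine e1.trans ?_
  rw [hpl_apply, pullConst_comp pr s j w M, HHmap_comp, ← hpVia_apply_th pr s j w]

/-- A finitely generated subalgebra of a separable closure lies in a finite Galois extension. -/
theorem exists_galois {K Ω : Type u} [Field K] [Field Ω] [Algebra K Ω] [IsSepClosure K Ω]
    (B : Subalgebra K Ω) (hB : B.FG) :
    ∃ F : IntermediateField K Ω, FiniteDimensional K F ∧ IsGalois K F ∧ B ≤ F.toSubalgebra := by
  have h1 : Algebra.IsSeparable K Ω := IsSepClosure.separable
  have h2 : IsSepClosed Ω := IsSepClosure.sep_closed K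
  have h3 : Algebra.IsAlgebraic K Ω := inferInstance
  have h4 : Normal K Ω := by
    have := (inferInstance : IsGalois K Ω)
    infer_instance
  obtain ⟨L, hL, hBL⟩ := Vancyc.H684.GalCont.exists_finite_of_fg B hB
  let F : IntermediateField K Ω := IntermediateField.normalClosure K L Ω
  have h5 : FiniteDimensional K F := inferInstance
  have h6 : Normal K F := inferInstance
  have h7 : Algebra.IsSeparable K F := inferInstance
  have h8 : IsGalois K F := ⟨⟩
  exact ⟨F, h5, h8, hBL.trans (IntermediateField.le_normalClosure L)⟩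

/-- **(F0)** every class on `C_Ω` comes from a finite Galois level. -/
theorem exists_class_galois (K Ω : Type u) [Field K] [Field Ω] [Algebra K Ω] [IsSepClosure K Ω]
    {C : Scheme.{u}} (f : C ⟶ Spec (CommRingCat.of K)) [QuasiCompact f] [QuasiSeparated f]
    (M : Type) [AddCommGroup M] (q : ℕ) (c : EtCoh.H (SGA7.bcField Ω f) (EtCoh.const _ M) q) :
    ∃ F : IntermediateField K Ω, FiniteDimensional K F ∧ IsGalois K F ∧
      ∃ c' : EtCoh.H (SGA7.bcField F f) (EtCoh.const _ M) q,
        Hc (pullback.map f (Spec.map (CommRingCat.ofHom (algebraMap K Ω))) f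
          (Spec.map (CommRingCat.ofHom (algebraMap K F))) (𝟙 C)
          (Spec.map (CommRingCat.ofHom (algebraMap F Ω))) (𝟙 _) (by simp)
          (by rw [← Spec.map_comp]; rfl)) M q c' = c := by
  obtain ⟨B, hB, Y, s, r, hY, pr, w, hr, η, hη⟩ :=
    Vancyc.H684.GalCont.exists_class_fg (R := K) (K := K) (Ω := Ω) f (EtCoh.const C M) q
      (HHmap (EtCore.pullConst (VanCyc.jA K f Ω) M).inv q c)
  obtain ⟨F, hF1, hF2, hBF⟩ := exists_galois B hB
  refine ⟨F, hF1, hF2, ?_⟩
  let i : B →+* F := (Subalgebra.inclusion hBF).toRingHom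
  have hfst : pullback.fst f (Spec.map (CommRingCat.ofHom (algebraMap K F))) ≫ f =
      (pullback.snd f (Spec.map (CommRingCat.ofHom (algebraMap K F))) ≫
        Spec.map (CommRingCat.ofHom i)) ≫
        Spec.map (CommRingCat.ofHom ((algebraMap K B).comp (algebraMap K K))) := by
    rw [pullback.condition, Category.assoc, ← Spec.map_comp]
    rfl
  let p : SGA7.bcField F f ⟶ Y := hY.lift _ _ hfst
  let π : SGA7.bcField Ω f ⟶ SGA7.bcField F f :=
    pullback.map f (Spec.map (CommRingCat.ofHom (algebraMap K Ω))) f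
          (Spec.map (CommRingCat.ofHom (algebraMap K F))) (𝟙 C)
          (Spec.map (CommRingCat.ofHom (algebraMap F Ω))) (𝟙 _) (by simp)
          (by rw [← Spec.map_comp]; rfl)
  have hπ : π ≫ p = pr := by
    apply hY.hom_ext
    · rw [Category.assoc, hY.lift_fst, w]
      exact (pullback.lift_fst _ _ _).trans (Category.comp_id _)
    · rw [Category.assoc, hY.lift_snd, hr]
      refine (Category.assoc _ _ _).symm.trans ?_
      refine (congrArg (· ≫ _) (pullback.lift_snd _ _ _)).trans ?_
      rw [Category.assoc, ← Spec.map_comp]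
      rfl
  let η' : HH Y (EtCoh.const Y M) q := HHmap (EtCore.pullConst s M).hom q η
  refine ⟨hc p M q η', ?_⟩
  have e1 : hc π M q (hc p M q η') = hc pr M q η' := hc_comp' hπ M q η'
  have e2 : hc pr M q η' = HHmap (EtCore.pullConst (VanCyc.jA K f Ω) M).hom q
      (hpVia pr s (VanCyc.jA K f Ω) w (EtCoh.const C M) q η) := hc_pullConst pr s _ w M q η
  have e3 : hpVia pr s (VanCyc.jA K f Ω) w (EtCoh.const C M) q η =
      HHmap (EtCore.pullConst (VanCyc.jA K f Ω) M).inv q c :=
    (HpullVia_apply_eq_hpVia pr s (VanCyc.jA K f Ω) w (EtCoh.const C M) q η).symm.trans hη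
  have e4 : hc π M q (hc p M q η') = c := by
    rw [e1, e2, e3, ← HHmap_comp, Iso.inv_hom_id, HHmap_id]
  exact e4

end Groth.Agent.Sga7.H799.F0
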